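import Cfsg.Agent.H254.BS.Defs
import Cfsg.Agent.H141.Rg.Defs
import Cfsg.Agent.H917.FP.Chr
import Cfsg.Agent.H262.Rg.Engine

/-!
# S5717: fixed points and generation from character ratios

helper885. `T` finite, `|χ(z)| ≤ ρ χ(1)` for all `z ≠ 1` and all nontrivial irreducible characters (`H141.Rg.Rat`).
* `one_le_deg` : `1 ≤ χ(1)² (1 / |T| + ρ²)`; `one_le_index` : the same for the index of a proper subgroup;
* `fixNum_le` : `z ≠ 1` fixes at most `(ρ + √(1 / |T| + ρ²)) |Ω|` points of a set without global fixed points;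
* `gen_of_rat` : `|T| < (1 / (4 ρ²)) ^ k` and `T` is generated by two elements ⟹ `T` is generated by `4 (k + 1)` conjugates of
  any `z ≠ 1`.
-/

set_option autoImplicit false
set_option linter.unusedSectionVars false

namespace Cfsg.Agent.H885.BS

open Cfsg Cfsg.Agent.Characters Cfsg.Agent.Characters.Core Cfsg.Agent.H686.CharKit MulAction
open Cfsg.Agent.H141.Rg Cfsg.Agent.H254.BS
open scoped ComplexConjugate

section Deg

variable {T : Type} [Group T] [Finite T] {ρ : ℝ}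

/-- **The degrees are large.** -/
theorem one_le_deg (hρ : ∀ z : T, z ≠ 1 → Rat ρ z) {χ : T → ℂ} (hχ : IsIrrCharacter T χ)
    (h1 : ∃ g, χ g ≠ 1) : 1 ≤ (χ 1).re ^ 2 * (1 / Nat.card T + ρ ^ 2) := by
  classical
  have : Fintype T := Fintype.ofFinite T
  have hT : (0 : ℝ) < Nat.card T := by exact_mod_cast Nat.card_pos
  have h2 := classInner_irr_self hχ
  rw [classInner_def] at h2
  have h3 : ∑ g : T, χ g * conj (χ g) = ((∑ g : T, ‖χ g‖ ^ 2 : ℝ) : ℂ) := by
    push_cast
    refine Finset.sum_congr rfl fun g _ => ?_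
    rw [mul_comm, ← Complex.normSq_eq_conj_mul_self, Complex.normSq_eq_norm_sq]
    push_cast
    rfl
  rw [h3] at h2
  have h4 : (Nat.card T : ℂ) * ((Nat.card T : ℂ)⁻¹ * ((∑ g : T, ‖χ g‖ ^ 2 : ℝ) : ℂ)) = (Nat.card T : ℂ) * 1 := by rw [h2]
  rw [← mul_assoc, mul_inv_cancel₀ card_ne_zero_complex, one_mul, mul_one] at h4
  have h5 : ∑ g : T, ‖χ g‖ ^ 2 = (Nat.card T : ℝ) := by exact_mod_cast h4
  obtain ⟨n, hn, hn1⟩ := isIrr_apply_one hχ
  have hre : (χ 1).re = n := by rw [hn1]; simp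
  have h6 : ∀ g : T, ‖χ g‖ ^ 2 ≤ (if g = 1 then (n : ℝ) ^ 2 else 0) + (ρ * n) ^ 2 := by
    intro g
    by_cases hg : g = 1
    · subst hg
      rw [if_pos rfl, hn1, Complex.norm_natCast]
      have := sq_nonneg (ρ * n)
      linarith
    · rw [if_neg hg, zero_add]
      have h7 := hρ g hg χ hχ h1
      rw [hre] at h7
      exact pow_le_pow_left₀ (norm_nonneg _) h7 2
  have h7 : (Nat.card T : ℝ) ≤ (n : ℝ) ^ 2 + Nat.card T * (ρ * n) ^ 2 := by
    rw [← h5]
    refine (Finset.sum_le_sum fun g _ => h6 g).trans (le_of_eq ?_)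
    rw [Finset.sum_add_distrib, Finset.sum_ite_eq' Finset.univ (1 : T), if_pos (Finset.mem_univ _), Finset.sum_const,
      Finset.card_univ, nsmul_eq_mul, ← Nat.card_eq_fintype_card, h5]
  rw [hre]
  have h8 : (n : ℝ) ^ 2 * (1 / Nat.card T + ρ ^ 2) = ((n : ℝ) ^ 2 + Nat.card T * (ρ * n) ^ 2) / Nat.card T := by
    field_simp
  rw [h8, le_div_iff₀ hT, one_mul]
  exact h7

/-- **The indices are large.** -/
theorem one_le_index (hρ : ∀ z : T, z ≠ 1 → Rat ρ z) {R : Subgroup T} (hR : R ≠ ⊤) :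
    1 ≤ (R.index : ℝ) * √(1 / Nat.card T + ρ ^ 2) := by
  classical
  have : Fintype (IrrCharacter T) := by
    have := finite_irr (G := T)
    exact Fintype.ofFinite _
  obtain ⟨m, dg, -, hdg, hdg0, hsum, hm1⟩ := H917.FP.perm_comb (S := T) (Ω := T ⧸ R)
  set ε : IrrCharacter T := ⟨1, isIrr_one⟩ with hε
  have hS : 0 < Nat.card T := Nat.card_pos
  have hX : Nat.card (T ⧸ R) = R.index := rfl
  have h1 : m ε = 1 := by
    have : Fintype (T ⧸ R) := Fintype.ofFinite _
    rw [finsum_eq_sum_of_fintype] at hm1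
    have h2 : ∀ w : T ⧸ R, Nat.card (stabilizer T w) = Nat.card R := by
      intro w
      have h4 : Nat.card (orbit T w) = R.index := by
        rw [orbit_eq_univ, Nat.card_congr (Equiv.Set.univ _), hX]
      have h5 := Subgroup.index_mul_card R
      have h6 : Nat.card (orbit T w) * Nat.card (stabilizer T w) = Nat.card T := by
        have := Fintype.ofFinite (orbit T w)
        have := Fintype.ofFinite (stabilizer T w)
        have := Fintype.ofFinite T
        rw [Nat.card_eq_fintype_card, Nat.card_eq_fintype_card, Nat.card_eq_fintype_card]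
        exact MulAction.card_orbit_mul_card_stabilizer_eq_card_group T w
      rw [h4, ← h5] at h6
      exact Nat.eq_of_mul_eq_mul_left (Nat.pos_of_ne_zero Subgroup.index_ne_zero_of_finite) h6
    rw [Finset.sum_congr rfl fun w _ => h2 w, Finset.sum_const, Finset.card_univ,
      ← Nat.card_eq_fintype_card, hX, smul_eq_mul, Subgroup.index_mul_card] at hm1
    exact Nat.eq_of_mul_eq_mul_right hS (by rw [hm1, one_mul])
  have hdε : dg ε = 1 := by
    have h1 := hdg ε
    have h2 : (ε : T → ℂ) 1 = 1 := rfl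
    rw [h2] at h1
    exact_mod_cast h1.symm
  have hsplit : Nat.card (T ⧸ R) = 1 + ∑ ψ ∈ Finset.univ.erase ε, m ψ * dg ψ := by
    rw [hsum, ← Finset.add_sum_erase _ _ (Finset.mem_univ ε), h1, hdε]
  have hgt : 1 < R.index := by
    have h0 : R.index ≠ 0 := Subgroup.index_ne_zero_of_finite
    have h3 : R.index ≠ 1 := fun h => hR (Subgroup.index_eq_one.mp h)
    omega
  have hne : ∑ ψ ∈ Finset.univ.erase ε, m ψ * dg ψ ≠ 0 := by
    rw [hX] at hsplit
    omega
  obtain ⟨ψ, hψ, hψ0⟩ := Finset.exists_ne_zero_of_sum_ne_zero hne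
  have hψ1 : ∃ g, (ψ : T → ℂ) g ≠ 1 := by
    by_contra hcon
    push Not at hcon
    exact (Finset.mem_erase.1 hψ).1 (Subtype.ext (funext hcon))
  have h5 := one_le_deg hρ ψ.2 hψ1
  rw [hdg, Complex.natCast_re] at h5
  have h6 : dg ψ ≤ m ψ * dg ψ := Nat.le_mul_of_pos_left _ (Nat.pos_of_ne_zero fun h => hψ0 (by rw [h, zero_mul]))
  have h7 : m ψ * dg ψ ≤ ∑ ψ ∈ Finset.univ.erase ε, m ψ * dg ψ :=
    Finset.single_le_sum (f := fun ψ => m ψ * dg ψ) (fun _ _ => Nat.zero_le _) hψ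
  have h8 : (dg ψ : ℝ) ≤ R.index := by
    have : dg ψ ≤ R.index := by rw [← hX, hsplit]; omega
    exact_mod_cast this
  have h9 : 0 ≤ 1 / (Nat.card T : ℝ) + ρ ^ 2 := by positivity
  have h10 : (1 : ℝ) ≤ ((R.index : ℝ) * √(1 / Nat.card T + ρ ^ 2)) ^ 2 := by
    rw [mul_pow, Real.sq_sqrt h9]
    refine h5.trans (mul_le_mul_of_nonneg_right ?_ h9)
    exact pow_le_pow_left₀ (Nat.cast_nonneg _) h8 2
  have h11 : 0 ≤ (R.index : ℝ) * √(1 / Nat.card T + ρ ^ 2) := by positivity
  by_contra hcon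
  push Not at hcon
  have h12 : ((R.index : ℝ) * √(1 / Nat.card T + ρ ^ 2)) ^ 2 < 1 := by
    rw [sq_lt_one_iff₀ h11]
    exact hcon
  linarith

/-- **Few fixed points.** -/
theorem fixNum_le (hρ0 : 0 ≤ ρ) (hρ : ∀ z : T, z ≠ 1 → Rat ρ z) {Ω : Type} [Finite Ω] [MulAction T Ω]
    (hΩ : ∀ ω : Ω, ∃ g : T, g • ω ≠ ω) {z : T} (hz : z ≠ 1) :
    (fixNum T Ω {z} : ℝ) ≤ (ρ + √(1 / Nat.card T + ρ ^ 2)) * Nat.card Ω := by
  classical
  have : Fintype T := Fintype.ofFinite T
  have : Fintype Ω := Fintype.ofFinite Ω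
  have : Fintype (IrrCharacter T) := by
    have := finite_irr (G := T)
    exact Fintype.ofFinite _
  set δ : ℝ := √(1 / Nat.card T + ρ ^ 2) with hδ
  have hδ0 : 0 ≤ δ := Real.sqrt_nonneg _
  have hS : (0 : ℝ) < Nat.card T := by exact_mod_cast Nat.card_pos
  obtain ⟨m, dg, hm, hdg, hdg0, hsum, hm1⟩ := H917.FP.perm_comb (S := T) (Ω := Ω)
  set ε : IrrCharacter T := ⟨1, isIrr_one⟩ with hε
  -- the number of orbits
  have hr : (m ε : ℝ) ≤ δ * Nat.card Ω := by
    have h1 : (m ε : ℝ) * Nat.card T = ∑ w : Ω, (Nat.card (stabilizer T w) : ℝ) := by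
      rw [finsum_eq_sum_of_fintype] at hm1
      exact_mod_cast hm1
    have h2 : ∀ w : Ω, (Nat.card (stabilizer T w) : ℝ) ≤ δ * Nat.card T := by
      intro w
      have h3 : stabilizer T w ≠ ⊤ := by
        intro h
        obtain ⟨g, hg⟩ := hΩ w
        apply hg
        have : g ∈ stabilizer T w := by rw [h]; trivial
        exact this
      have h4 := one_le_index hρ h3
      have h5 := Subgroup.index_mul_card (stabilizer T w)
      rw [← h5]
      push_cast
      have h6 : (0 : ℝ) ≤ Nat.card (stabilizer T w) := Nat.cast_nonneg _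
      calc (Nat.card (stabilizer T w) : ℝ) = 1 * Nat.card (stabilizer T w) := (one_mul _).symm
        _ ≤ ((stabilizer T w).index * δ) * Nat.card (stabilizer T w) := mul_le_mul_of_nonneg_right h4 h6
        _ = δ * ((stabilizer T w).index * Nat.card (stabilizer T w)) := by ring
    have h3 : (m ε : ℝ) * Nat.card T ≤ (δ * Nat.card Ω) * Nat.card T := by
      rw [h1]
      refine (Finset.sum_le_sum fun w _ => h2 w).trans (le_of_eq ?_)
      rw [Finset.sum_const, Finset.card_univ, nsmul_eq_mul, ← Nat.card_eq_fintype_card]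
      ring
    exact le_of_mul_le_mul_right h3 hS
  have hfix : (fixNum T Ω {z} : ℝ) ≤ m ε + ρ * (∑ ψ ∈ Finset.univ.erase ε, m ψ * dg ψ : ℕ) := by
    have h1 : fixNum T Ω {z} = Nat.card (fixedBy Ω z) := by
      unfold fixNum
      refine Nat.card_congr (Equiv.subtypeEquivRight fun w => ?_)
      simp
    rw [h1]
    have h2 := hm z
    rw [← Finset.add_sum_erase _ _ (Finset.mem_univ ε)] at h2
    have h3 : ‖((Nat.card (fixedBy Ω z) : ℕ) : ℂ)‖ ≤ m ε + ρ * (∑ ψ ∈ Finset.univ.erase ε, m ψ * dg ψ : ℕ) := by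
      rw [h2]
      refine (norm_add_le _ _).trans (add_le_add ?_ ?_)
      · have : (ε : T → ℂ) z = 1 := rfl
        rw [this, mul_one, Complex.norm_natCast]
      · refine (norm_sum_le _ _).trans ?_
        push_cast
        rw [Finset.mul_sum]
        refine Finset.sum_le_sum fun ψ hψ => ?_
        have hψ1 : ∃ g, (ψ : T → ℂ) g ≠ 1 := by
          by_contra hcon
          push Not at hcon
          exact (Finset.mem_erase.1 hψ).1 (Subtype.ext (funext hcon))
        have h4 := hρ z hz ψ ψ.2 hψ1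
        rw [hdg, Complex.natCast_re] at h4
        rw [norm_mul, Complex.norm_natCast]
        calc (m ψ : ℝ) * ‖(ψ : T → ℂ) z‖ ≤ m ψ * (ρ * dg ψ) := mul_le_mul_of_nonneg_left h4 (Nat.cast_nonneg _)
          _ = ρ * (m ψ * dg ψ) := by ring
    rwa [Complex.norm_natCast] at h3
  have h5 : ((∑ ψ ∈ Finset.univ.erase ε, m ψ * dg ψ : ℕ) : ℝ) ≤ Nat.card Ω := by
    have : ∑ ψ ∈ Finset.univ.erase ε, m ψ * dg ψ ≤ Nat.card Ω := by
      rw [hsum]
      exact Finset.sum_le_sum_of_subset_of_nonneg (Finset.erase_subset _ _) fun _ _ _ => Nat.zero_le _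
    exact_mod_cast this
  have h6 := mul_le_mul_of_nonneg_left h5 hρ0
  linarith

end Deg

section Mix

variable {T : Type} [Group T] [Fintype T]

/-- the correlation of two class functions -/
theorem corr2_eq [Fintype (IrrCharacter T)] {f g : T → ℂ} (hf : IsClassFunction T f) (hg : IsClassFunction T g) (t : T) :
    ∑ y, f (t * y) * conj (g y) = (Nat.card T : ℂ) * ∑ χ : IrrCharacter T,
      (classInner f (χ : T → ℂ) * conj (classInner g (χ : T → ℂ))) * ((χ : T → ℂ) t / (χ : T → ℂ) 1) := by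
  have h1 : ∀ y, conj (g y) = ∑ χ : IrrCharacter T, conj (classInner g (χ : T → ℂ)) * conj ((χ : T → ℂ) y) := by
    intro y
    have h2 := congrArg (fun z : ℂ => conj z) (congrFun (Core.classFunction_eq_sum hg) y)
    simp only [Finset.sum_apply, Pi.smul_apply, smul_eq_mul, map_sum, map_mul] at h2
    exact h2
  simp only [h1, Finset.mul_sum]
  rw [Finset.sum_comm]
  refine Finset.sum_congr rfl fun χ _ => ?_
  have h3 := Cfsg.Agent.Classification.TypeZIV.Parity.sum_conv hf χ.2 t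
  have h4 : ∑ y, f y * conj ((χ : T → ℂ) y) = (Nat.card T : ℂ) * classInner f (χ : T → ℂ) := by
    rw [Core.classInner_def, ← mul_assoc, mul_inv_cancel₀ Core.card_ne_zero_complex, one_mul]
  rw [h4] at h3
  have h5 : ∑ y, f (t * y) * (conj (classInner g (χ : T → ℂ)) * conj ((χ : T → ℂ) y)) =
      conj (classInner g (χ : T → ℂ)) * ∑ y, f (t * y) * conj ((χ : T → ℂ) y) := by
    rw [Finset.mul_sum]
    refine Finset.sum_congr rfl fun y _ => ?_
    ring
  rw [h5, h3]
  ring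

open Cfsg.Agent.H262.Rg.Engine in
/-- **Mixing.** -/
theorem mixing {ρ : ℝ} (hρ0 : 0 ≤ ρ) {t : T} (ht : Rat ρ t) {A B : Set T} (hA : CInv A) (hB : CInv B) :
    |(Nat.card {y : T // t * y ∈ A ∧ y ∈ B} : ℝ) - (Nat.card A : ℝ) * Nat.card B / Nat.card T| ≤
      ρ * √((Nat.card A : ℝ) * Nat.card B) := by
  classical
  have : Fintype (IrrCharacter T) := by
    have := finite_irr (G := T)
    exact Fintype.ofFinite _
  have hT : (0 : ℝ) < Nat.card T := by exact_mod_cast Nat.card_pos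
  have hAc : IsClassFunction T (ind A) := ind_class (fun g hg h => hA g hg h)
  have hBc : IsClassFunction T (ind B) := ind_class (fun g hg h => hB g hg h)
  have h1 := corr2_eq hAc hBc t
  have h2 : ∑ y, ind A (t * y) * conj (ind B y) = (Nat.card {y : T // t * y ∈ A ∧ y ∈ B} : ℂ) := by
    unfold ind
    rw [Nat.card_eq_fintype_card, Fintype.card_subtype, Finset.card_filter]
    push_cast
    refine Finset.sum_congr rfl fun y _ => ?_
    by_cases h1 : t * y ∈ A <;> by_cases h2 : y ∈ B <;> simp [h1, h2]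
  rw [h2] at h1
  set ε : IrrCharacter T := ⟨1, isIrr_one⟩ with hε
  rw [← Finset.add_sum_erase _ _ (Finset.mem_univ ε)] at h1
  have h3 : classInner (ind A) (ε : T → ℂ) = (Nat.card A : ℂ) / Nat.card T := inner_one A
  have h4 : classInner (ind B) (ε : T → ℂ) = (Nat.card B : ℂ) / Nat.card T := inner_one B
  have h5 : (ε : T → ℂ) t / (ε : T → ℂ) 1 = 1 := by
    change (1 : ℂ) / 1 = 1
    rw [div_one]
  rw [h3, h4, h5, mul_one, mul_add] at h1
  have hTc : (Nat.card T : ℂ) ≠ 0 := card_ne_zero_complex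
  have h6 : (Nat.card T : ℂ) * ((Nat.card A : ℂ) / Nat.card T * conj ((Nat.card B : ℂ) / Nat.card T)) =
      (((Nat.card A : ℝ) * Nat.card B / Nat.card T : ℝ) : ℂ) := by
    rw [map_div₀, Complex.conj_natCast, Complex.conj_natCast]
    push_cast
    field_simp
  rw [h6] at h1
  have h7 : (((Nat.card {y : T // t * y ∈ A ∧ y ∈ B} : ℝ) - (Nat.card A : ℝ) * Nat.card B / Nat.card T : ℝ) : ℂ) =
      (Nat.card T : ℂ) * ∑ χ ∈ Finset.univ.erase ε,
        (classInner (ind A) (χ : T → ℂ) * conj (classInner (ind B) (χ : T → ℂ))) * ((χ : T → ℂ) t / (χ : T → ℂ) 1) := by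
    push_cast
    rw [h1]
    push_cast
    ring
  rw [← Real.norm_eq_abs, ← Complex.norm_real, h7, norm_mul, Complex.norm_natCast]
  have h8 : ∀ χ ∈ Finset.univ.erase ε, ‖(classInner (ind A) (χ : T → ℂ) * conj (classInner (ind B) (χ : T → ℂ))) *
      ((χ : T → ℂ) t / (χ : T → ℂ) 1)‖ ≤ ρ * (‖classInner (ind A) (χ : T → ℂ)‖ * ‖classInner (ind B) (χ : T → ℂ)‖) := by
    intro χ hχ
    have hχ1 : ∃ g, (χ : T → ℂ) g ≠ 1 := by
      by_contra hcon
      push Not at hcon
      exact (Finset.mem_erase.1 hχ).1 (Subtype.ext (funext hcon))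
    obtain ⟨n, hn, hn1⟩ := isIrr_apply_one χ.2
    have h9 := ht χ χ.2 hχ1
    have hnR : (0 : ℝ) < n := by exact_mod_cast hn
    rw [hn1, Complex.natCast_re] at h9
    have h10 : ‖(χ : T → ℂ) t / (χ : T → ℂ) 1‖ ≤ ρ := by
      rw [norm_div, hn1, Complex.norm_natCast, div_le_iff₀ hnR]
      exact h9
    rw [norm_mul, norm_mul, RCLike.norm_conj, mul_comm]
    exact mul_le_mul_of_nonneg_right h10 (by positivity)
  have h9 : ‖∑ χ ∈ Finset.univ.erase ε, (classInner (ind A) (χ : T → ℂ) * conj (classInner (ind B) (χ : T → ℂ))) *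
      ((χ : T → ℂ) t / (χ : T → ℂ) 1)‖ ≤ ρ * (√(∑ χ : IrrCharacter T, ‖classInner (ind A) (χ : T → ℂ)‖ ^ 2) *
        √(∑ χ : IrrCharacter T, ‖classInner (ind B) (χ : T → ℂ)‖ ^ 2)) := by
    refine (norm_sum_le _ _).trans ((Finset.sum_le_sum h8).trans ?_)
    rw [← Finset.mul_sum]
    refine mul_le_mul_of_nonneg_left ?_ hρ0
    refine (Finset.sum_le_sum_of_subset_of_nonneg (Finset.erase_subset _ _) fun _ _ _ => by positivity).trans ?_
    exact Real.sum_mul_le_sqrt_mul_sqrt _ _ _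
  have hind : ∀ A : Set T, CInv A → ∑ χ : IrrCharacter T, ‖classInner (ind A) (χ : T → ℂ)‖ ^ 2 =
      (Nat.card A : ℝ) / Nat.card T := by
    intro A hA
    have h10 := sum_inner_sq (f := ind A) (ind_class (fun g hg h => hA g hg h))
    have h11 : ∑ y, ‖ind A y‖ ^ 2 = (Nat.card A : ℝ) := by
      rw [Nat.card_eq_fintype_card, Fintype.card_subtype, Finset.card_filter]
      push_cast
      refine Finset.sum_congr rfl fun y _ => ?_
      unfold ind
      by_cases h1 : y ∈ A <;> simp [h1]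
    rw [h11] at h10
    rw [← h10, mul_div_cancel_left₀ _ hT.ne']
  rw [hind A hA, hind B hB, ← Real.sqrt_mul (by positivity)] at h9
  refine (mul_le_mul_of_nonneg_left h9 hT.le).trans (le_of_eq ?_)
  have h12 : (Nat.card A : ℝ) / Nat.card T * ((Nat.card B : ℝ) / Nat.card T) =
      ((Nat.card A : ℝ) * Nat.card B) / (Nat.card T : ℝ) ^ 2 := by
    field_simp
  rw [h12, Real.sqrt_div (by positivity), Real.sqrt_sq hT.le]
  field_simp

end Mix

section Gen

variable {T : Type} [Group T]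

/-- products of `j` conjugates of `z` -/
def Pw (z : T) : ℕ → Set T
  | 0 => {1}
  | j + 1 => {g | ∃ c : T, IsConj z c ∧ c⁻¹ * g ∈ Pw z j}

theorem cinv_Pw (z : T) (j : ℕ) : CInv (Pw z j) := by
  induction j with
  | zero =>
    rintro x rfl g
    change g * 1 * g⁻¹ = 1
    group
  | succ j ih =>
    rintro x ⟨c, hc, hx⟩ g
    refine ⟨g * c * g⁻¹, hc.trans (isConj_iff.2 ⟨g, rfl⟩), ?_⟩
    have h1 := ih _ hx g
    have h2 : (g * c * g⁻¹)⁻¹ * (g * x * g⁻¹) = g * (c⁻¹ * x) * g⁻¹ := by group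
    rw [h2]
    exact h1

theorem mul_mem_Pw {z c y : T} {j : ℕ} (hc : IsConj z c) (hy : y ∈ Pw z j) : c * y ∈ Pw z (j + 1) :=
  ⟨c, hc, by rwa [inv_mul_cancel_left]⟩

/-- the group generated by the conjugates of `z` under `B` -/
def Cg (z : T) (B : Finset T) : Subgroup T := Subgroup.closure (⋃ g ∈ B, (fun s => g * s * g⁻¹) '' ({z} : Set T))

theorem Cg_mono {z : T} {B B' : Finset T} (h : B ⊆ B') : Cg z B ≤ Cg z B' := by
  apply Subgroup.closure_mono
  exact Set.biUnion_mono h fun _ _ => le_rfl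

theorem mem_Cg {z : T} {B : Finset T} {g : T} (hg : g ∈ B) : g * z * g⁻¹ ∈ Cg z B := by
  apply Subgroup.subset_closure
  simp only [Set.image_singleton, Set.mem_iUnion, Set.mem_singleton_iff]
  exact ⟨g, hg, rfl⟩

theorem exists_of_Pw {z : T} {j : ℕ} : ∀ {g : T}, g ∈ Pw z j → ∃ B : Finset T, B.card ≤ j ∧ g ∈ Cg z B := by
  classical
  induction j with
  | zero =>
    rintro g rfl
    exact ⟨∅, le_refl _, one_mem _⟩
  | succ j ih =>
    rintro g ⟨c, hc, hg⟩
    obtain ⟨B, hB, hgB⟩ := ih hg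
    obtain ⟨h, rfl⟩ := isConj_iff.1 hc
    refine ⟨insert h B, (Finset.card_insert_le _ _).trans (by omega), ?_⟩
    have h1 := mem_Cg (z := z) (Finset.mem_insert_self h B)
    have h2 := Cg_mono (z := z) (Finset.subset_insert h B) hgB
    have h3 := mul_mem h1 h2
    rwa [mul_inv_cancel_left] at h3

variable [Finite T]

/-- **Growth.** -/
theorem card_Pw {ρ : ℝ} (hρ0 : 0 < ρ) {z : T} (hz : Rat ρ z) (j : ℕ) :
    (Nat.card T : ℝ) / 2 ≤ Nat.card (Pw z j) ∨ (1 / (4 * ρ ^ 2)) ^ j ≤ (Nat.card (Pw z j) : ℝ) := by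
  classical
  have : Fintype T := Fintype.ofFinite T
  have hT : (0 : ℝ) < Nat.card T := by exact_mod_cast Nat.card_pos
  induction j with
  | zero =>
    right
    rw [pow_zero]
    have : Nat.card (Pw z 0) = 1 := by
      change Nat.card ({1} : Set T) = 1
      simp
    rw [this, Nat.cast_one]
  | succ j ih =>
    set a : ℝ := ((Nat.card (Pw z j) : ℕ) : ℝ) with ha
    set b : ℝ := ((Nat.card (Pw z (j + 1)) : ℕ) : ℝ) with hb
    have ha0 : 0 ≤ a := Nat.cast_nonneg _
    have hb0 : 0 ≤ b := Nat.cast_nonneg _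
    have hmono : a ≤ b := by
      have h1 : Nat.card (Pw z j) ≤ Nat.card (Pw z (j + 1)) := by
        refine Nat.card_le_card_of_injective
          (fun y : Pw z j => (⟨z * y, mul_mem_Pw (IsConj.refl z) y.2⟩ : Pw z (j + 1))) ?_
        intro x y hxy
        have := congrArg Subtype.val hxy
        exact Subtype.ext (mul_left_cancel this)
      rw [ha, hb]
      exact_mod_cast h1
    by_cases hbig : (Nat.card T : ℝ) / 2 ≤ b
    · exact Or.inl hbig
    right
    push Not at hbig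
    have ih' : (1 / (4 * ρ ^ 2)) ^ j ≤ a := by
      rcases ih with h1 | h1
      · exfalso; linarith
      · exact h1
    have h1 := mixing hρ0.le hz (cinv_Pw z (j + 1)) (cinv_Pw z j)
    have h2 : Nat.card {y : T // z * y ∈ Pw z (j + 1) ∧ y ∈ Pw z j} = Nat.card (Pw z j) := by
      refine Nat.card_congr (Equiv.subtypeEquivRight fun y => ?_)
      exact ⟨fun h => h.2, fun h => ⟨mul_mem_Pw (IsConj.refl z) h, h⟩⟩
    rw [h2, ← ha, ← hb] at h1
    have h3 := (abs_le.1 h1).2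
    have hpos : 0 < a := by
      have : (0 : ℝ) < (1 / (4 * ρ ^ 2)) ^ j := by positivity
      linarith
    have h4 : b * a / Nat.card T ≤ a / 2 := by
      rw [div_le_iff₀ hT]
      nlinarith
    have h5 : a / 2 ≤ ρ * √(b * a) := by linarith
    have h6 : (a / 2) ^ 2 ≤ (ρ * √(b * a)) ^ 2 := pow_le_pow_left₀ (by positivity) h5 2
    rw [mul_pow, Real.sq_sqrt (by positivity)] at h6
    have h7 : a ≤ 4 * ρ ^ 2 * b := by
      have h8 : a * a ≤ (4 * ρ ^ 2 * b) * a := by nlinarith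
      exact le_of_mul_le_mul_right h8 hpos
    rw [pow_succ, mul_one_div, div_le_iff₀ (by positivity)]
    linarith

/-- **Covering.** -/
theorem Pw_top {ρ : ℝ} (hρ0 : 0 < ρ) (hρ1 : 4 * ρ ^ 2 < 1) {z : T} (hz : Rat ρ z) {k : ℕ}
    (hk : (Nat.card T : ℝ) < (1 / (4 * ρ ^ 2)) ^ k) (g : T) :
    ∃ B : Finset T, B.card ≤ 2 * (k + 1) ∧ g ∈ Cg z B := by
  classical
  have : Fintype T := Fintype.ofFinite T
  have hT : (0 : ℝ) < Nat.card T := by exact_mod_cast Nat.card_pos
  set a : ℝ := ((Nat.card (Pw z k) : ℕ) : ℝ) with ha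
  have ha2 : (Nat.card T : ℝ) / 2 ≤ a := by
    rcases card_Pw hρ0 hz k with h1 | h1
    · exact h1
    · exfalso
      have h2 : Nat.card (Pw z k) ≤ Nat.card T := Nat.card_le_card_of_injective _ Subtype.val_injective
      have h3 : a ≤ Nat.card T := by rw [ha]; exact_mod_cast h2
      linarith
  have ha0 : 0 < a := by linarith [half_pos hT]
  -- the complement of the next power
  have hD : CInv (Pw z (k + 1))ᶜ := by
    intro x hx g hg
    apply hx
    have := cinv_Pw z (k + 1) _ hg g⁻¹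
    have h2 : g⁻¹ * (g * x * g⁻¹) * g⁻¹⁻¹ = x := by group
    rwa [h2] at this
  have h1 := mixing hρ0.le hz hD (cinv_Pw z k)
  have h2 : Nat.card {y : T // z * y ∈ (Pw z (k + 1))ᶜ ∧ y ∈ Pw z k} = 0 := by
    rw [Nat.card_eq_zero]
    left
    exact ⟨fun y => y.2.1 (mul_mem_Pw (IsConj.refl z) y.2.2)⟩
  set d : ℝ := ((Nat.card ↥((Pw z (k + 1))ᶜ) : ℕ) : ℝ) with hd
  have hd0 : 0 ≤ d := Nat.cast_nonneg _
  rw [h2, Nat.cast_zero, zero_sub, abs_neg, abs_of_nonneg (by positivity)] at h1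
  have h3 : (d * a / Nat.card T) ^ 2 ≤ (ρ * √(d * a)) ^ 2 := pow_le_pow_left₀ (by positivity) h1 2
  rw [mul_pow, Real.sq_sqrt (by positivity), div_pow, div_le_iff₀ (by positivity)] at h3
  have h4 : d < (Nat.card T : ℝ) / 2 := by
    by_contra hcon
    push Not at hcon
    have hd1 : 0 < d := by linarith [half_pos hT]
    have h5 : d * a ≤ ρ ^ 2 * (Nat.card T : ℝ) ^ 2 := by
      have h6 : (d * a) * (d * a) ≤ (ρ ^ 2 * (Nat.card T : ℝ) ^ 2) * (d * a) := by nlinarith
      exact le_of_mul_le_mul_right h6 (by positivity)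
    have h6 : (Nat.card T : ℝ) / 2 * ((Nat.card T : ℝ) / 2) ≤ d * a :=
      mul_le_mul hcon ha2 (by positivity) hd0
    nlinarith [mul_pos hT hT]
  have h5 : (Nat.card T : ℝ) / 2 < Nat.card (Pw z (k + 1)) := by
    have h6 : Nat.card (Pw z (k + 1)) + Nat.card ↥((Pw z (k + 1))ᶜ) = Nat.card T := by
      have := Set.ncard_add_ncard_compl (Pw z (k + 1))
      rwa [← Nat.card_coe_set_eq, ← Nat.card_coe_set_eq] at this
    have h7 : (Nat.card (Pw z (k + 1)) : ℝ) + d = Nat.card T := by rw [hd]; exact_mod_cast h6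
    linarith
  -- the pigeonhole principle
  obtain ⟨x, hx1, hx2⟩ : ∃ x, x ∈ Pw z (k + 1) ∧ x⁻¹ * g ∈ Pw z (k + 1) := by
    by_contra hcon
    push Not at hcon
    have h6 : Nat.card (Pw z (k + 1)) ≤ Nat.card ↥((Pw z (k + 1))ᶜ) := by
      refine Nat.card_le_card_of_injective
        (fun y : Pw z (k + 1) => (⟨(y : T)⁻¹ * g, hcon y y.2⟩ : ↥((Pw z (k + 1))ᶜ))) ?_
      intro x y hxy
      have := congrArg Subtype.val hxy
      exact Subtype.ext (inv_injective (mul_right_cancel this))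
    have h7 : (Nat.card (Pw z (k + 1)) : ℝ) ≤ d := by rw [hd]; exact_mod_cast h6
    linarith
  obtain ⟨B, hB, hxB⟩ := exists_of_Pw hx1
  obtain ⟨B', hB', hxB'⟩ := exists_of_Pw hx2
  refine ⟨B ∪ B', (Finset.card_union_le _ _).trans (by omega), ?_⟩
  have h6 := mul_mem (Cg_mono (z := z) Finset.subset_union_left hxB) (Cg_mono (z := z) (Finset.subset_union_right (s₁ := B)) hxB')
  rwa [mul_inv_cancel_left] at h6

/-- **Generation by few conjugates.** -/
theorem gen_of_rat (h2 : ∃ x y : T, Subgroup.closure ({x, y} : Set T) = ⊤) {ρ : ℝ} (hρ0 : 0 < ρ)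
    (hρ1 : 4 * ρ ^ 2 < 1) {z : T} (hz : Rat ρ z) {k : ℕ} (hk : (Nat.card T : ℝ) < (1 / (4 * ρ ^ 2)) ^ k) :
    GenBy T {z} (4 * (k + 1)) := by
  classical
  obtain ⟨x, y, hxy⟩ := h2
  obtain ⟨B, hB, hx⟩ := Pw_top hρ0 hρ1 hz hk x
  obtain ⟨B', hB', hy⟩ := Pw_top hρ0 hρ1 hz hk y
  refine ⟨B ∪ B', (Finset.card_union_le _ _).trans (by omega), ?_⟩
  change Cg z (B ∪ B') = ⊤
  rw [eq_top_iff, ← hxy, Subgroup.closure_le]
  rintro w (rfl | rfl)
  · exact Cg_mono (z := z) Finset.subset_union_left hx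
  · exact Cg_mono (z := z) (Finset.subset_union_right (s₁ := B)) hy

end Gen

end Cfsg.Agent.H885.BS
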